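import Cfsg.Agent.H122.TC.Real
import Cfsg.Agent.H140.TC.Fam

/-!
# S4173: the rows `E₇(q)`, `E₈(q)` (helper122)
-/

set_option autoImplicit false

namespace Cfsg.Agent.H122.TwoC

open Cfsg.Lie Cfsg.Agent.H140.TC

/-- **`E₇(q)`.** -/
theorem tc_e7 {S : Type*} [Group S] (h : Lie.IsoE7 S) : TC S := by
  obtain ⟨F, i1, i2, ⟨e⟩⟩ := h
  exact TC.of_equiv e (tw_E7 (K := F))

/-- **`E₈(q)`.** -/
theorem tc_e8 {S : Type*} [Group S] (h : Lie.IsoE8 S) : TC S := by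
  obtain ⟨F, i1, i2, ⟨e⟩⟩ := h
  exact TC.of_equiv e (tw_E8 (K := F))

end Cfsg.Agent.H122.TwoC
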